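import Groth.Prelude.Def_Smoothing
import Groth.Agent.Smoothlim.JacAway
import Mathlib.LinearAlgebra.Matrix.Charpoly.LinearMap
import Mathlib.RingTheory.Localization.Away.Basic
import Mathlib.RingTheory.Extension.Presentation.Submersive

/-!
Elementary standard elements: after inverting the element the algebra is standard smooth.
-/

set_option autoImplicit false

universe u

namespace Groth.Agent.Old.H28.ElemStd

open MvPolynomial

/-- If `K` is a finitely generated ideal and `a * K ⊆ K ^ 2` then some element congruent to a power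
of `a` modulo `K` kills `K`. -/
theorem exists_mul_eq_zero_of_mul_mem_sq {S : Type*} [CommRing S] (K : Ideal S) (hK : K.FG) (a : S)
    (ha : ∀ x ∈ K, a * x ∈ K ^ 2) :
    ∃ (r : S) (n : ℕ), r - a ^ n ∈ K ∧ ∀ x ∈ K, r * x = 0 := by
  have : Module.Finite S K := Module.Finite.iff_fg.mpr hK
  let f : Module.End S K := a • LinearMap.id
  have hf : LinearMap.range f ≤ K • (⊤ : Submodule S K) := by
    rintro _ ⟨x, rfl⟩
    have h1 : a * (x : S) ∈ K • (K : Submodule S S) := by
      have := ha x x.2
      rwa [pow_two] at this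
    have h2 : (K • (⊤ : Submodule S K)).map K.subtype = K • (K : Submodule S S) := by
      rw [Submodule.map_smul'', Submodule.map_subtype_top]
    rw [← h2] at h1
    obtain ⟨y, hy, hyx⟩ := h1
    have : y = f x := Subtype.ext hyx
    rw [← this]
    exact hy
  obtain ⟨p, hp, -, hcoeff, hzero⟩ :=
    LinearMap.exists_monic_and_natDegree_eq_and_coeff_mem_pow_and_aeval_eq_zero S f K hf
  refine ⟨p.eval a, p.natDegree, ?_, ?_⟩
  · rw [Polynomial.eval_eq_sum_range, Finset.sum_range_succ, hp.coeff_natDegree, one_mul,
      add_sub_cancel_right]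
    refine Ideal.sum_mem _ fun i hi => Ideal.mul_mem_right _ _ ?_
    have hi' : i < p.natDegree := Finset.mem_range.mp hi
    exact Ideal.pow_le_self (by omega) (hcoeff i)
  · intro x hx
    have h1 : f = algebraMap S (Module.End S K) a := by
      ext y; rfl
    have h2 := LinearMap.congr_fun hzero ⟨x, hx⟩
    rw [h1, Polynomial.aeval_algebraMap_apply] at h2
    have h3 := congrArg Subtype.val h2
    simpa using h3

/-- If `π : S → A` is surjective and `r` kills the kernel, with `π r = a ^ n`, then the localization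
of `A` away from `a` is the localization of `S` away from `b * r`, where `b` lifts `a`. -/
theorem isLocalizationAway_of_surjective {S A T : Type*} [CommRing S] [CommRing A] [CommRing T]
    [Algebra S A] [Algebra A T] [Algebra S T] [IsScalarTower S A T]
    (hπ : Function.Surjective (algebraMap S A)) (b r : S) (n : ℕ)
    (hr : algebraMap S A r = algebraMap S A b ^ n)
    (hker : ∀ x, algebraMap S A x = 0 → r * x = 0)
    [IsLocalization.Away (algebraMap S A b) T] :
    IsLocalization.Away (b * r) T := by
  have hu : IsUnit (algebraMap A T (algebraMap S A b)) := IsLocalization.Away.algebraMap_isUnit _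
  have hbr : algebraMap S T (b * r) = algebraMap A T (algebraMap S A b) ^ (n + 1) := by
    rw [IsScalarTower.algebraMap_apply S A T, map_mul, hr, map_mul, map_pow, pow_succ, mul_comm]
  refine ⟨?_, ?_, ?_⟩
  · rintro ⟨_, k, rfl⟩
    change IsUnit (algebraMap S T ((b * r) ^ k))
    rw [map_pow, hbr]
    exact (hu.pow _).pow _
  · intro z
    obtain ⟨k, x, hx⟩ := IsLocalization.Away.surj (algebraMap S A b) z
    obtain ⟨y, hy⟩ := hπ x
    refine ⟨⟨b ^ (n * k) * y, ⟨(b * r) ^ k, k, rfl⟩⟩, ?_⟩
    change z * algebraMap S T ((b * r) ^ k) = algebraMap S T (b ^ (n * k) * y)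
    rw [map_pow, hbr, map_mul, IsScalarTower.algebraMap_apply S A T y, hy, ← hx, map_pow,
      IsScalarTower.algebraMap_apply S A T b, ← pow_mul]
    ring
  · intro x y hxy
    rw [IsScalarTower.algebraMap_apply S A T, IsScalarTower.algebraMap_apply S A T] at hxy
    obtain ⟨⟨_, k, rfl⟩, hc⟩ := (IsLocalization.eq_iff_exists
      (Submonoid.powers (algebraMap S A b)) T).mp hxy
    have h1 : algebraMap S A (b ^ k * (x - y)) = 0 := by
      rw [map_mul, map_pow, map_sub, mul_sub, sub_eq_zero]
      exact hc
    have h2 := hker _ h1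
    refine ⟨⟨(b * r) ^ (k + 1), k + 1, rfl⟩, ?_⟩
    change (b * r) ^ (k + 1) * x = (b * r) ^ (k + 1) * y
    rw [← sub_eq_zero]
    calc (b * r) ^ (k + 1) * x - (b * r) ^ (k + 1) * y
        = r ^ k * b * (r * (b ^ k * (x - y))) := by ring
      _ = 0 := by rw [h2, mul_zero]

/-- The presubmersive presentation of the quotient of a polynomial ring by the leading relations of
a marked presentation. -/
noncomputable def leading {R A : Type u} [CommRing R] [CommRing A] [Algebra R A]
    (P : Smoothing.MarkedPresentation R A) :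
    Algebra.PreSubmersivePresentation R
      (MvPolynomial (Fin P.n) R ⧸ Ideal.span
        (Set.range fun k : Fin P.c => P.rel (Fin.castLE P.hcm k))) (Fin P.n) (Fin P.c) where
  __ := Algebra.Presentation.naive (v := fun k : Fin P.c => P.rel (Fin.castLE P.hcm k))
  map := Fin.castLE P.hcn
  map_inj := Fin.castLE_injective P.hcn

theorem leading_jacobian {R A : Type u} [CommRing R] [CommRing A] [Algebra R A]
    (P : Smoothing.MarkedPresentation R A) :
    (leading P).jacobian = Ideal.Quotient.mk _
      (Smoothing.jacobianMinor P.rel (Fin.castLE P.hcm) (Fin.castLE P.hcn)) := by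
  rw [Algebra.PreSubmersivePresentation.jacobian_eq_jacobiMatrix_det]
  have h1 : (leading P).jacobiMatrix = (Matrix.of fun j k : Fin P.c =>
      pderiv (Fin.castLE P.hcn k) (P.rel (Fin.castLE P.hcm j))).transpose := by
    ext1 i j
    rw [Algebra.PreSubmersivePresentation.jacobiMatrix_apply]
    rfl
  rw [h1, Matrix.det_transpose]
  rfl

theorem isStandardSmooth_away {R A : Type u} [CommRing R] [CommRing A]
    [Algebra R A] (a : A) (ha : Smoothing.IsElementaryStandard R A a) (T : Type*) [CommRing T]
    [Algebra A T] [Algebra R T] [IsScalarTower R A T] [IsLocalization.Away a T] :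
    Algebra.IsStandardSmooth R T := by
  obtain ⟨P, ⟨a₂, ha₂⟩, hkill⟩ := ha
  obtain ⟨b, hb⟩ := P.surj a
  let J : Ideal (MvPolynomial (Fin P.n) R) :=
    Ideal.span (Set.range fun k : Fin P.c => P.rel (Fin.castLE P.hcm k))
  have hJ : J ≤ RingHom.ker P.hom := by
    rw [Ideal.span_le]
    rintro _ ⟨k, rfl⟩
    have : P.rel (Fin.castLE P.hcm k) ∈ RingHom.ker P.hom.toRingHom := by
      rw [P.ker_eq]; exact Ideal.subset_span ⟨_, rfl⟩
    exact this
  let S := MvPolynomial (Fin P.n) R ⧸ J
  let π : S →ₐ[R] A := Ideal.Quotient.liftₐ J P.hom fun x hx => hJ hx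
  have hπ : ∀ x, π (Ideal.Quotient.mk J x) = P.hom x := fun x => rfl
  let : Algebra S A := π.toAlgebra
  let : Algebra S T := ((algebraMap A T).comp π.toRingHom).toAlgebra
  have : IsScalarTower S A T := IsScalarTower.of_algebraMap_eq fun x => rfl
  have : IsScalarTower R S A := IsScalarTower.of_algebraMap_eq fun x => (π.commutes x).symm
  have : IsScalarTower R S T := by
    refine IsScalarTower.of_algebraMap_eq (R := R) (S := S) (A := T) fun x => ?_
    rw [IsScalarTower.algebraMap_apply R A T, IsScalarTower.algebraMap_apply R S A]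
    rfl
  have halg : ∀ x, algebraMap S A (Ideal.Quotient.mk J x) = P.hom x := fun x => rfl
  have hsurj : Function.Surjective (algebraMap S A) := by
    intro y
    obtain ⟨x, hx⟩ := P.surj y
    exact ⟨Ideal.Quotient.mk J x, hx⟩
  let K : Ideal S := (Ideal.span (Set.range P.rel)).map (Ideal.Quotient.mk J)
  have hKmem : ∀ x : S, algebraMap S A x = 0 → x ∈ K := by
    intro x hx
    obtain ⟨y, rfl⟩ := Ideal.Quotient.mk_surjective x
    refine Ideal.mem_map_of_mem _ ?_
    rw [← P.ker_eq]
    exact hx
  have hK0 : ∀ x ∈ K, algebraMap S A x = 0 := by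
    intro x hx
    have : K ≤ RingHom.ker (algebraMap S A) := by
      rw [Ideal.map_le_iff_le_comap, ← P.ker_eq]
      intro y hy
      exact hy
    exact this hx
  have hKfg : K.FG := Ideal.FG.map ⟨(Set.finite_range P.rel).toFinset, by simp⟩ _
  have hbK : ∀ x ∈ K, Ideal.Quotient.mk J b * x ∈ K ^ 2 := by
    have hle : K ≤ Submodule.comap (LinearMap.mulLeft S (Ideal.Quotient.mk J b)) (K ^ 2) := by
      have hKs : K = Submodule.span S (Ideal.Quotient.mk J '' Set.range P.rel) :=
        Ideal.map_span _ _
      nth_rw 1 [hKs]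
      rw [Submodule.span_le]
      rintro _ ⟨_, ⟨j, rfl⟩, rfl⟩
      change Ideal.Quotient.mk J b * Ideal.Quotient.mk J (P.rel j) ∈ K ^ 2
      by_cases hj : P.c ≤ (j : ℕ)
      · have h1 := hkill b hb j hj
        have h2 := Ideal.mem_map_of_mem (Ideal.Quotient.mk J) h1
        rw [Ideal.map_sup, Ideal.map_pow, map_mul] at h2
        have h3 : (Ideal.span (P.rel '' {j' : Fin P.m | (j' : ℕ) < P.c})).map
            (Ideal.Quotient.mk J) = ⊥ := by
          rw [eq_bot_iff, Ideal.map_le_iff_le_comap, Ideal.span_le]
          rintro _ ⟨j', hj', rfl⟩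
          change Ideal.Quotient.mk J (P.rel j') = 0
          rw [Ideal.Quotient.eq_zero_iff_mem]
          exact Ideal.subset_span ⟨⟨j', hj'⟩, rfl⟩
        rw [h3, bot_sup_eq] at h2
        exact h2
      · push Not at hj
        have : Ideal.Quotient.mk J (P.rel j) = 0 := by
          rw [Ideal.Quotient.eq_zero_iff_mem]
          exact Ideal.subset_span ⟨⟨j, hj⟩, rfl⟩
        rw [this, mul_zero]
        exact Ideal.zero_mem _
    exact fun x hx => hle hx
  obtain ⟨r, n, hrn, hrK⟩ := exists_mul_eq_zero_of_mul_mem_sq K hKfg (Ideal.Quotient.mk J b) hbK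
  have hab : algebraMap S A (Ideal.Quotient.mk J b) = a := hb
  have : IsLocalization.Away (algebraMap S A (Ideal.Quotient.mk J b)) T := by
    rw [hab]; infer_instance
  have hr : algebraMap S A r = algebraMap S A (Ideal.Quotient.mk J b) ^ n := by
    rw [← map_pow, ← sub_eq_zero, ← map_sub]
    exact hK0 _ hrn
  have := isLocalizationAway_of_surjective (T := T) hsurj (Ideal.Quotient.mk J b) r n hr
    (fun x hx => hrK x (hKmem x hx))
  refine Groth.Agent.Smoothlim.JacAway.isStandardSmooth_of_isLocalizationAway (leading P)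
    (Ideal.Quotient.mk J b * r) ?_
  rw [leading_jacobian]
  change IsUnit (algebraMap A T (P.hom
    (Smoothing.jacobianMinor P.rel (Fin.castLE P.hcm) (Fin.castLE P.hcn))))
  have hu : IsUnit (algebraMap A T a) := IsLocalization.Away.algebraMap_isUnit a
  rw [ha₂, map_mul] at hu
  exact isUnit_of_mul_isUnit_right hu

end Groth.Agent.Old.H28.ElemStd
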