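import Groth.Agent.Etbase.PullConn

/-!
# Sections of inverse images under universally submersive morphisms with connected geometric fibres
-/

set_option autoImplicit false
universe u

open CategoryTheory CategoryTheory.Limits AlgebraicGeometry Opposite

namespace Groth.Agent.Old.H28.PullSub

open Groth.Agent.Etbase Groth.Agent.Etbase.EtSections Groth.Agent.Etbase.PullUnit
  Groth.Agent.Etbase.PullConn

variable {T S : Scheme.{u}} (f : T ⟶ S)

theorem isQuotientMap_proj
    (hsub : ∀ (S' : Scheme.{u}) (g : S' ⟶ S), Topology.IsQuotientMap (pullback.snd f g).base)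
    (U : S.Etale) : Topology.IsQuotientMap (proj f U) := by
  have h := hsub U.left U.hom
  have h3 : Topology.IsQuotientMap
      ((pullback.snd f U.hom) ∘ (pullbackSymmetry U.hom f).hom) :=
    h.comp (pullbackSymmetry U.hom f).hom.homeomorph.isQuotientMap
  have e : ∀ x, pullback.fst U.hom f x = (pullback.snd f U.hom) ((pullbackSymmetry U.hom f).hom x) := by
    intro x
    rw [← Scheme.Hom.comp_apply, pullbackSymmetry_hom_comp_snd]
  have e2 : ((pullback.fst U.hom f : _ ⟶ _) : _ → _) =
      (pullback.snd f U.hom) ∘ (pullbackSymmetry U.hom f).hom := funext e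
  change Topology.IsQuotientMap (pullback.fst U.hom f)
  exact e2 ▸ h3

/-- For `f` universally submersive with connected geometric fibres, the unit
`F(U) ⟶ (f⁻¹F)(U ×_S T)` is bijective for every `U` étale over `S`. -/
theorem unitSect_bijective
    (hsub : ∀ (S' : Scheme.{u}) (g : S' ⟶ S), Topology.IsQuotientMap (pullback.snd f g).base)
    (hc : ∀ (Ω : Type u) [Field Ω] [IsAlgClosed Ω] (s : Spec (CommRingCat.of Ω) ⟶ S),
      ConnectedSpace ↥(pullback f s))
    (F : EtCoh.Ab S) (U₀ : S.Etale) : Function.Bijective (unitSect f F U₀) := by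
  have hsurj : Surjective f := by
    refine ⟨fun s => ?_⟩
    obtain ⟨Ω, _, _, η, hη⟩ := EtSections.exists_geometricPoint s
    have h1 := hc Ω η
    obtain ⟨z⟩ : Nonempty ↥(pullback f η) := inferInstance
    refine ⟨pullback.fst f η z, ?_⟩
    rw [← Scheme.Hom.comp_apply, pullback.condition, Scheme.Hom.comp_apply, ← hη]
    exact congrArg η (Subsingleton.elim _ _)
  refine ⟨unitSect_injective f F U₀, ?_⟩
  intro s
  -- local lifts
  have hloc : ∀ x₀ : U₀.left, ∃ (U : S.Etale) (u : U ⟶ U₀) (x : U.left) (σ : EtCoh.sect F U),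
      u.left x = x₀ ∧ unitSect f F U σ =
        ((EtCoh.pull f).obj F).obj.map ((EtCoh.bc f).map u).op s := by
    intro x₀
    obtain ⟨z₀, hz₀⟩ := (proj f U₀).surjective x₀
    obtain ⟨U, u, z, σ, hz, hD⟩ := exists_unitSect_vanishesAt f F U₀ s z₀
    let D := ((EtCoh.pull f).obj F).obj.map ((EtCoh.bc f).map u).op s - unitSect f F U σ
    let W : Set ((EtCoh.bc f).obj U).left :=
      {z | VanishesAt ((EtCoh.pull f).obj F) ((EtCoh.bc f).obj U) D z}
    have hWo : IsOpen W := isOpen_vanishesAt _ _ _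
    let W' : Set U.left := proj f U '' W
    have hW' : proj f U ⁻¹' W' = W := by
      refine Set.Subset.antisymm ?_ (Set.subset_preimage_image _ _)
      rintro z' ⟨z'', hz'', hzz⟩
      exact vanishesAt_of_proj_eq f hc F U D z'' z' hzz hz''
    have hW'o : IsOpen W' := by
      rw [← (isQuotientMap_proj f hsub U).isOpen_preimage, hW']
      exact hWo
    let O : U.left.Opens := ⟨W', hW'o⟩
    let U₁ : S.Etale := Scheme.Etale.mk (O.ι ≫ U.hom)
    let u₁ : U₁ ⟶ U := MorphismProperty.Over.homMk O.ι rfl (by simp)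
    have hx : proj f U z ∈ O := ⟨z, hD, rfl⟩
    refine ⟨U₁, u₁ ≫ u, ⟨proj f U z, hx⟩, F.obj.map u₁.op σ, ?_, ?_⟩
    · change u.left (O.ι ⟨proj f U z, hx⟩) = x₀
      have h1 : O.ι ⟨proj f U z, hx⟩ = proj f U z := rfl
      rw [h1, ← hz₀, ← hz, ← Scheme.Hom.comp_apply, ← Scheme.Hom.comp_apply, map_proj]
    · rw [map_unitSect]
      have h2 : ((EtCoh.pull f).obj F).obj.map ((EtCoh.bc f).map (u₁ ≫ u)).op s =
          ((EtCoh.pull f).obj F).obj.map ((EtCoh.bc f).map u₁).op
            (((EtCoh.pull f).obj F).obj.map ((EtCoh.bc f).map u).op s) := by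
        rw [map_map, Functor.map_comp]
      rw [h2]
      symm
      rw [← sub_eq_zero, ← map_sub]
      refine eq_zero_of_vanishesAt _ _ _ (fun z₁ => ?_)
      rw [vanishesAt_map_iff]
      have h3 : ((EtCoh.bc f).map u₁).left z₁ ∈ W := by
        rw [← hW', Set.mem_preimage, ← Scheme.Hom.comp_apply, map_proj, Scheme.Hom.comp_apply]
        exact (proj f U₁ z₁).2
      exact h3
  let R : Sieve U₀ :=
    { arrows := fun V g => ∃ σ : EtCoh.sect F V, unitSect f F V σ =
        ((EtCoh.pull f).obj F).obj.map ((EtCoh.bc f).map g).op s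
      downward_closed := fun {V W} g hg k => by
        obtain ⟨σ, hσ⟩ := hg
        refine ⟨F.obj.map k.op σ, ?_⟩
        rw [map_unitSect, hσ, map_map, ← Functor.map_comp] }
  obtain ⟨σ, hσ⟩ := exists_glue F U₀ R (fun x₀ => by
      obtain ⟨U, u, x, τ, hx, hτ⟩ := hloc x₀
      exact ⟨U, u, x, ⟨τ, hτ⟩, hx⟩) (fun V g hg => hg.choose) (fun V W g hg k hk => by
      apply unitSect_injective f F W
      rw [map_unitSect, hg.choose_spec, hk.choose_spec, map_map, ← Functor.map_comp])
  refine ⟨σ, ?_⟩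
  refine EtSite.sect_ext _ _ _ _ (fun z => ?_)
  obtain ⟨U, u, x, τ, hx, hτ⟩ := hloc (proj f U₀ z)
  have hR : R u := ⟨τ, hτ⟩
  obtain ⟨z₁, hz₁, -⟩ := Scheme.Pullback.exists_preimage_pullback (f := proj f U₀) (g := u.left)
    z x hx.symm
  have sq := EtCoh.isPullback_bc_map f u
  refine ⟨(EtCoh.bc f).obj U, (EtCoh.bc f).map u, sq.isoPullback.inv z₁, ?_, ?_⟩
  · rw [← hz₁, ← Scheme.Hom.comp_apply, IsPullback.isoPullback_inv_fst]
    rfl
  · rw [← map_unitSect, hσ U u hR, hR.choose_spec]

end Groth.Agent.Old.H28.PullSub
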